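import Cfsg.Agent.H162.CC.Tools3
import Cfsg.Agent.H1.J1Real

/-!
# The row `J₁` of S3828 (helper791)

For every odd prime `p` dividing `|J₁|` the Sylow `p`-subgroups have order `p`; for a generator `x` there is `g` such that
`[c, c^g]` is not a `p`-element for all `c = x ^ k`, `1 ≤ k < p`.
-/

set_option autoImplicit false

namespace Cfsg.Agent.H791.CC.JOne

open Subgroup Cfsg Cfsg.Agent.H162.CCR
open Cfsg.Agent.SporadicB.J1.Mat Cfsg.Agent.SporadicB.J1.Data Cfsg.Agent.SporadicB.J1.Main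
open Cfsg.Agent.H413.JOneLocal Cfsg.Agent.H1.RealTool Cfsg.Agent.H1.J1Real
open Cfsg.Spor (J1)

/-- code of `c⁻¹ d⁻¹ c d`, `c = x ^ j`, `c⁻¹ = x ^ i`, `d = g' c g` -/
def eC (x g g' i j : Nat) : Nat :=
  mulC (mulC (mulC (powC x i cI) (mulC (mulC g' (powC x i cI)) g)) (powC x j cI)) (mulC (mulC g' (powC x j cI)) g)

/-- the check for the prime `p` -/
def chk (p x g g' : Nat) : Bool :=
  (List.range p).all fun j => (Nat.beq j 0) || diffC (powC (eC x g g' (p - j) j) p cI) cI

theorem chk_spec {p x g g' : Nat} (h : chk p x g g' = true) {j : ℕ} (hj : j < p) (hj0 : j ≠ 0) :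
    diffC (powC (eC x g g' (p - j) j) p cI) cI = true := by
  unfold chk at h
  rw [List.all_eq_true] at h
  have h1 := h j (List.mem_range.2 hj)
  rw [Bool.or_eq_true] at h1
  rcases h1 with h1 | h1
  · exact absurd (Nat.eq_of_beq_eq_true h1) hj0
  · exact h1

/-- **the criterion** -/
theorem of_chk {p : ℕ} [hp : Fact p.Prime] (hsq : ¬ p ^ 2 ∣ Nat.card J1) (w v v' : List Nat)
    (hx : orderOf (ev w) = p) (hv : mulC (evC v) (evC v') = cI) (hc : chk p (evC w) (evC v) (evC v') = true) :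
    CRow p J1 := by
  intro C hC c hcC
  by_contra hc1
  -- `p`-elements have order `1` or `p`
  have hexp : ∀ y : J1, (∃ k, orderOf y = p ^ k) → y ^ p = 1 := by
    rintro y ⟨k, hk⟩
    have hk1 : k ≤ 1 := by
      by_contra h1
      exact hsq ((pow_dvd_pow p (by omega)).trans (hk ▸ orderOf_dvd_natCard y))
    rw [← orderOf_dvd_iff_pow_eq_one, hk]
    calc p ^ k ∣ p ^ 1 := pow_dvd_pow p hk1
      _ = p := pow_one p
  have hco : orderOf c = p := orderOf_eq_prime (hexp c (hC.pel c hcC)) hc1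
  obtain ⟨g, hg⟩ := exists_conj_mem_zpowers hp.out hsq hx hco
  rw [← mem_powers_iff_mem_zpowers] at hg
  obtain ⟨n, hn⟩ := hg
  have hn : ev w ^ n = g * c * g⁻¹ := hn
  have hgc : g * c * g⁻¹ ∈ C := hC.conj g c hcC
  have hj : ev w ^ (n % p) = g * c * g⁻¹ := by rw [← hn, ← hx, pow_mod_orderOf]
  set j := n % p with hjdef
  have hjp : j < p := Nat.mod_lt _ hp.out.pos
  have hj0 : j ≠ 0 := by
    intro h0
    rw [h0, pow_zero] at hj
    apply hc1
    have h2 : c = g⁻¹ * (g * c * g⁻¹) * g := by group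
    rw [h2, ← hj]; group
  rw [← hj] at hgc
  have h1 := hexp _ (hC.pel _ (hC.comm_conj (ev v) hgc))
  have hinv : (ev w ^ j)⁻¹ = ev w ^ (p - j) := by
    rw [inv_eq_iff_mul_eq_one, ← pow_add, show j + (p - j) = p by omega, ← hx, pow_orderOf_eq_one]
  have hvi : (ev v)⁻¹ = ev v' := by
    have h2 : ev v * ev v' = 1 := ((rep_ev v).mul (rep_ev v')).eq Rep.one hv
    exact inv_eq_of_mul_eq_one_right h2
  have hinv2 : ((ev v)⁻¹ * ev w ^ j * ev v)⁻¹ = ev v' * ev w ^ (p - j) * ev v := by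
    rw [mul_inv_rev, mul_inv_rev, inv_inv, hinv, hvi, mul_assoc]
  rw [hinv2, hinv, hvi] at h1
  have hrep : Rep (ev w ^ (p - j) * (ev v' * ev w ^ (p - j) * ev v) * ev w ^ j * (ev v' * ev w ^ j * ev v))
      (eC (evC w) (evC v) (evC v') (p - j) j) :=
    ((((rep_ev w).pow _).mul (((rep_ev v').mul ((rep_ev w).pow _)).mul (rep_ev v))).mul ((rep_ev w).pow _)).mul
      (((rep_ev v').mul ((rep_ev w).pow _)).mul (rep_ev v))
  exact (hrep.pow p).ne Rep.one (chk_spec hc hjp hj0) h1

theorem card_ne {p : ℕ} (hp : p.Prime) (h2 : p ≠ 2) (h : p ∣ 175560) : ¬ p ^ 2 ∣ Nat.card J1 := by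
  rw [card_J1]
  rcases prime_cases hp h with rfl | rfl | rfl | rfl | rfl | rfl
  · exact absurd rfl h2
  all_goals norm_num

theorem row3 [Fact (Nat.Prime 3)] : CRow 3 J1 :=
  of_chk (card_ne (by norm_num) (by norm_num) (by norm_num)) [0, 1, 1, 1, 0, 1, 1, 1] [0] [2]
    (orderOf_eq_prime (((rep_ev _).pow 3).eq Rep.one (by decide +kernel)) ((rep_ev _).ne Rep.one (by decide +kernel)))
    (by decide +kernel) (by decide +kernel)

theorem row5 [Fact (Nat.Prime 5)] : CRow 5 J1 :=
  of_chk (card_ne (by norm_num) (by norm_num) (by norm_num)) [1] [0] [2]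
    (orderOf_eq_prime (((rep_ev _).pow 5).eq Rep.one (by decide +kernel)) ((rep_ev _).ne Rep.one (by decide +kernel)))
    (by decide +kernel) (by decide +kernel)

theorem row7 [Fact (Nat.Prime 7)] : CRow 7 J1 :=
  of_chk (card_ne (by norm_num) (by norm_num) (by norm_num)) [0] [1] [3]
    (orderOf_eq_prime (((rep_ev _).pow 7).eq Rep.one (by decide +kernel)) ((rep_ev _).ne Rep.one (by decide +kernel)))
    (by decide +kernel) (by decide +kernel)

theorem row11 [Fact (Nat.Prime 11)] : CRow 11 J1 :=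
  of_chk (card_ne (by norm_num) (by norm_num) (by norm_num)) [0, 1, 1] [1] [3]
    (orderOf_eq_prime (((rep_ev _).pow 11).eq Rep.one (by decide +kernel)) ((rep_ev _).ne Rep.one (by decide +kernel)))
    (by decide +kernel) (by decide +kernel)

theorem row19 [Fact (Nat.Prime 19)] : CRow 19 J1 :=
  of_chk (card_ne (by norm_num) (by norm_num) (by norm_num)) [0, 0, 0, 1] [1, 0] [2, 3]
    (orderOf_eq_prime (((rep_ev _).pow 19).eq Rep.one (by decide +kernel)) ((rep_ev _).ne Rep.one (by decide +kernel)))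
    (by decide +kernel) (by decide +kernel)

theorem not_comm_J1 : ¬ IsMulCommutative J1 := by
  intro h
  have h1 : (u : J1) * ev [0] = ev [0] * u := h.is_comm.comm _ _
  have h2 : (u : J1) * ev [0] ≠ ev [0] * u :=
    ((rep_ev _).mul (rep_ev _)).ne ((rep_ev _).mul (rep_ev _)) (by decide +kernel)
  exact h2 h1

theorem row2 [Fact (Nat.Prime 2)] : CRow 2 J1 := by
  have hs : IsSimpleGroup J1 := isJ1.1
  intro C hC c hc
  refine hC.sq_ne_one (pCore_eq_bot_of_simple not_comm_J1 2) hc ?_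
  obtain ⟨P, hP⟩ := (hC.isPGroup_zpowers hc).exists_le_sylow
  exact (Cfsg.Agent.UGT.EndJ1.Data.bal.syl P).2 c (hP (mem_zpowers c))

/-- **S3828, the row `J₁`.** -/
theorem crow_j1 {G : Type*} [Group G] (h : Spor.IsoJ1 G) (p : ℕ) [hp : Fact p.Prime] : CRow p G := by
  obtain ⟨e⟩ := h
  refine CRow.of_equiv e ?_
  by_cases hd : p ∣ 175560
  · rcases prime_cases hp.out hd with rfl | rfl | rfl | rfl | rfl | rfl
    · exact row2
    · exact row3
    · exact row5
    · exact row7
    · exact row11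
    · exact row19
  · intro C hC c hc
    obtain ⟨k, hk⟩ := hC.pel c hc
    have h1 : p ^ k ∣ 175560 := by rw [← card_J1, ← hk]; exact orderOf_dvd_natCard c
    have h2 : k = 0 := by
      by_contra h0
      exact hd ((dvd_pow_self p h0).trans h1)
    rw [h2, pow_zero] at hk
    exact orderOf_eq_one_iff.1 hk

end Cfsg.Agent.H791.CC.JOne
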